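import Mathlib
import Cfsg.Prelude.Def_KGroupFacts
import Cfsg.Agent.H584.NC.StepB
import Cfsg.Agent.SolvableStructure.MinimalNormal

/-!
# S5923 / S5924, piece M5, abstract part (helper848): a minimal normal subgroup of an overgroup of a simple group is simple
-/

set_option autoImplicit false

namespace Cfsg.Agent.H848.L5

open Subgroup Cfsg Cfsg.Agent.H584.NC

universe u

/-- a homomorphism from a nonsolvable simple group to a solvable group is trivial -/
theorem hom_solvable {X S : Type*} [Group X] [IsSimpleGroup X] [Group S] (hna : ¬ Group.IsSolvable X)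
    (hS : Group.IsSolvable S) (φ : X →* S) (x : X) : φ x = 1 := by
  have hn : φ.ker.Normal := inferInstance
  rcases hn.eq_bot_or_eq_top with h | h
  · exact absurd (Group.isSolvable_of_isSolvable_injective ((MonoidHom.ker_eq_bot_iff φ).1 h)) hna
  · have : x ∈ φ.ker := by rw [h]; trivial
    exact this

/-- the index of a proper subgroup -/
theorem le_index {X : Type*} [Group X] [Finite X] [IsSimpleGroup X] (H : Subgroup X) (hH : H ≠ ⊤) {p : ℕ}
    (hp : p.Prime) (hpX : p ∣ Nat.card X) : p ≤ H.index := by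
  have h1 : H.normalCore = ⊥ := by
    rcases (inferInstance : H.normalCore.Normal).eq_bot_or_eq_top with h | h
    · exact h
    · exact absurd (top_le_iff.1 (h ▸ H.normalCore_le)) hH
  have h2 : Function.Injective (MulAction.toPermHom X (X ⧸ H)) := by
    rw [← MonoidHom.ker_eq_bot_iff, ← Subgroup.normalCore_eq_ker, h1]
  have h3 : Nat.card X ∣ Nat.card (Equiv.Perm (X ⧸ H)) := Subgroup.card_dvd_of_injective _ h2
  rw [Nat.card_perm] at h3
  exact (hp.dvd_factorial).1 (hpX.trans h3)

/-- a simple group acting on a simple group whose order is prime to `p` -/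
theorem cent_of_coprime {G : Type u} [Group G] [Finite G] (X T : Subgroup G) (hSch : Group.IsSolvable (Out T))
    (hX : IsSimpleGroup X) (hXs : ¬ Group.IsSolvable X) (hn : X ≤ normalizer (T : Set G)) {p : ℕ}
    (hpX : p ∣ Nat.card X) (hpT : ¬ p ∣ Nat.card T) : ∀ x ∈ X, ∀ t ∈ T, x * t = t * x := by
  let φ : X →* MulAut T := T.normalizerMonoidHom.comp (inclusion hn)
  have hφ : ∀ (x : X) (t : T), ((φ x t : T) : G) = x * t * (x : G)⁻¹ := fun x t => rfl
  have h1 : ∀ x, φ x ∈ Inn T := by
    intro x
    have h2 := hom_solvable hXs hSch ((QuotientGroup.mk' (Inn T)).comp φ) x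
    rw [MonoidHom.comp_apply, QuotientGroup.mk'_apply, QuotientGroup.eq_one_iff] at h2
    exact h2
  have hN : φ.ker.Normal := inferInstance
  have h3 : φ.ker = ⊤ := by
    rcases hN.eq_bot_or_eq_top with h | h
    · exfalso
      have hinj := (MonoidHom.ker_eq_bot_iff φ).1 h
      have h4 : Nat.card X ∣ Nat.card (Inn T) :=
        Subgroup.card_dvd_of_injective (φ.codRestrict (Inn T) h1) fun a b hab =>
          hinj (congrArg Subtype.val hab)
      have h5 : Nat.card (Inn T) ∣ Nat.card T := Subgroup.card_range_dvd (MulAut.conj : T →* MulAut T)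
      exact hpT ((hpX.trans h4).trans h5)
    · exact h
  intro x hx t ht
  have h4 : (⟨x, hx⟩ : X) ∈ φ.ker := by rw [h3]; trivial
  have h5 : φ ⟨x, hx⟩ = 1 := h4
  have h6 := hφ ⟨x, hx⟩ ⟨t, ht⟩
  rw [h5] at h6
  have h7 : t = x * t * x⁻¹ := h6
  exact (eq_mul_inv_iff_mul_eq.1 h7).symm

section Cmp

variable {M : Type*} [Group M] [Finite M] {N : Subgroup M} {C : Set (Subgroup M)}

theorem card_eq_prod (h : Cmp N C) [Fintype C] : Nat.card N = ∏ T : C, Nat.card (T : Subgroup M) := by
  obtain ⟨e⟩ := Lib.MinNormal.mulEquiv_pi_of_iSupIndep (K := N) (fun S : C => (S : Subgroup M))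
      (fun S S' hne x y hx hy => h.comm S S.2 S' S'.2 (fun h => hne (Subtype.ext h)) x hx y hy)
      ((sSupIndep_iff _).mp h.indep) (by rw [← sSup_eq_iSup']; exact h.sup)
  rw [Nat.card_congr e.toEquiv, Nat.card_pi]

omit [Finite M] in
theorem card_eq (h : Cmp N C) {S T : Subgroup M} (hS : S ∈ C) (hT : T ∈ C) : Nat.card S = Nat.card T := by
  obtain ⟨g, rfl⟩ := h.trans S hS T hT
  rw [Subgroup.card_map_of_injective (MulAut.conj g).injective]

theorem pow_dvd (h : Cmp N C) {r : ℕ} (hr : ∀ T ∈ C, r ∣ Nat.card T) : r ^ Nat.card C ∣ Nat.card N := by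
  have := Fintype.ofFinite C
  rw [card_eq_prod h, Nat.card_eq_fintype_card]
  have h1 : r ^ Fintype.card C = ∏ _T : C, r := by rw [Finset.prod_const, Finset.card_univ]
  rw [h1]
  exact Finset.prod_dvd_prod_of_dvd _ _ fun T _ => hr T T.2

theorem exists_dvd (h : Cmp N C) {p : ℕ} (hp : p.Prime) (hd : p ∣ Nat.card N) : ∀ T ∈ C, p ∣ Nat.card T := by
  have := Fintype.ofFinite C
  rw [card_eq_prod h, Prime.dvd_finsetProd_iff hp.prime] at hd
  obtain ⟨S, -, hS⟩ := hd
  intro T hT
  rw [card_eq h hT S.2]
  exact hS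

/-- the conjugates of a component under a subgroup -/
theorem le_normalizer_of (h : Cmp N C) (X : Subgroup M) (hX : IsSimpleGroup X) {p : ℕ} (hp : p.Prime)
    (hpX : p ∣ Nat.card X) (hC : Nat.card C < p) {T : Subgroup M} (hT : T ∈ C) : X ≤ normalizer (T : Set M) := by
  by_contra hcon
  have h1 : (normalizer (T : Set M)).subgroupOf X ≠ ⊤ := by
    intro h1
    rw [subgroupOf_eq_top] at h1
    exact hcon h1
  have h2 := le_index _ h1 hp hpX
  have h3 : ((normalizer (T : Set M)).subgroupOf X).index ≤ Nat.card C := by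
    let F : (X ⧸ (normalizer (T : Set M)).subgroupOf X) → C := fun c =>
      ⟨T.map (MulAut.conj ((c.out : X) : M)).toMonoidHom, h.conj T hT _⟩
    have hF : Function.Injective F := by
      intro a b hab
      have h4 : T.map (MulAut.conj ((a.out : X) : M)).toMonoidHom = T.map (MulAut.conj ((b.out : X) : M)).toMonoidHom :=
        congrArg Subtype.val hab
      have h5 : ((a.out : X) : M)⁻¹ * ((b.out : X) : M) ∈ normalizer (T : Set M) := by
        apply h.mem_normalizer_of_map
        have h6 : T.map (MulAut.conj (((a.out : X) : M)⁻¹ * ((b.out : X) : M))).toMonoidHom =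
            (T.map (MulAut.conj ((b.out : X) : M)).toMonoidHom).map (MulAut.conj (((a.out : X) : M)⁻¹)).toMonoidHom := by
          rw [Subgroup.map_map]
          congr 1
          rw [map_mul]
          rfl
        rw [h6, ← h4, Subgroup.map_map]
        have h7 : (MulAut.conj (((a.out : X) : M)⁻¹)).toMonoidHom.comp (MulAut.conj ((a.out : X) : M)).toMonoidHom =
            MonoidHom.id M := by
          ext y
          simp [MulAut.conj_apply, mul_assoc]
        rw [h7, Subgroup.map_id]
      have h8 : (a.out)⁻¹ * b.out ∈ (normalizer (T : Set M)).subgroupOf X := by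
        rw [mem_subgroupOf]
        exact h5
      have h9 := QuotientGroup.eq.2 h8
      rwa [QuotientGroup.out_eq', QuotientGroup.out_eq'] at h9
    exact Nat.card_le_card_of_injective F hF
  omega

end Cmp

theorem isSimple_map {G : Type*} [Group G] {M : Subgroup G} {T : Subgroup M} (hT : IsSimpleGroup T) :
    IsSimpleGroup (T.map M.subtype) :=
  (T.equivMapOfInjective M.subtype M.subtype_injective).symm.isSimpleGroup

/-- **The abstract form of M5.** -/
theorem exists_simple_gen
    (hSch : ∀ (T : Type u) [Group T] [Finite T] [IsSimpleGroup T], Group.IsSolvable (Out T))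
    (hFT : ∀ (T : Type u) [Group T] [Finite T], Odd (Nat.card T) → Group.IsSolvable T)
    {G : Type u} [Group G] [Finite G] (X M : Subgroup G) (hXM : X ≤ M) (hX : IsSimpleGroup X)
    (hXs : ¬ Group.IsSolvable X) {p : ℕ} (hp : p.Prime) (hpX : p ∣ Nat.card X) (hp2 : ¬ p ^ 2 ∣ Nat.card G)
    (h2 : ¬ 2 ^ p ∣ Nat.card G) (hC : centralizer (X : Set G) = ⊥)
    (hab : ∀ (R : Subgroup G) (r : ℕ), r.Prime → R ≠ ⊥ → (∀ x ∈ R, x ^ r = 1) →
      (∀ x ∈ R, ∀ y ∈ R, x * y = y * x) → X ≤ normalizer (R : Set G) → False) :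
    ∃ T : Subgroup G, T ≤ M ∧ M ≤ normalizer (T : Set G) ∧ IsSimpleGroup T ∧ X ≤ T := by
  have hXn : X ≠ ⊥ := by
    intro h
    rw [h, Subgroup.card_bot] at hpX
    exact hp.one_lt.ne' (Nat.dvd_one.1 hpX)
  have hMt : (⊤ : Subgroup M) ≠ ⊥ := by
    intro h
    apply hXn
    rw [eq_bot_iff]
    intro x hx
    have h1 : (⟨x, hXM hx⟩ : M) ∈ (⊤ : Subgroup M) := trivial
    rw [h, mem_bot] at h1
    exact congrArg Subtype.val h1
  obtain ⟨N, hN, -, hNb, hmin⟩ := exists_minimal_normal (G := M) ⊤ inferInstance hMt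
  -- the image of a normal subgroup
  have hnorm : ∀ K : Subgroup M, K.Normal → M ≤ normalizer ((K.map M.subtype : Subgroup G) : Set G) := by
    intro K hK
    have h1 := Subgroup.le_normalizer_map (H := K) M.subtype
    rw [Subgroup.normalizer_eq_top_iff.2 hK] at h1
    intro x hx
    exact h1 ⟨⟨x, hx⟩, trivial, rfl⟩
  have hcd : ∀ K : Subgroup M, Nat.card K ∣ Nat.card G := fun K =>
    (Subgroup.card_subgroup_dvd_card K).trans (Subgroup.card_subgroup_dvd_card M)
  have hna : ¬ ∀ x ∈ N, ∀ y ∈ N, x * y = y * x := by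
    intro hcomm
    obtain ⟨r, hr, hr1⟩ := SolvableStructure.MinimalNormal.exists_prime_pow_eq_one N hNb hmin hcomm
    refine hab (N.map M.subtype) r hr ?_ ?_ ?_ (hXM.trans (hnorm N hN))
    · intro h
      rw [Subgroup.map_eq_bot_iff_of_injective _ M.subtype_injective] at h
      exact hNb h
    · rintro _ ⟨x, hx, rfl⟩
      rw [← map_pow, hr1 x hx, map_one]
    · rintro _ ⟨x, hx, rfl⟩ _ ⟨y, hy, rfl⟩
      rw [← map_mul, hcomm x hx y hy, map_mul]
  have h := Cmp.of_minimal N hN hmin hna
  set C := Lib.MinNormalNonabelian.minSet N with hCdef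
  -- `X` in `M`
  set X' : Subgroup M := X.subgroupOf M with hX'
  have eX : X' ≃* X := subgroupOfEquivOfLe hXM
  have hXsimple : IsSimpleGroup X' := eX.isSimpleGroup
  have hX's : ¬ Group.IsSolvable X' := fun h' => hXs (Group.isSolvable_of_isSolvable_injective (f := eX.symm.toMonoidHom) eX.symm.injective)
  have hpX' : p ∣ Nat.card X' := by rwa [Nat.card_congr eX.toEquiv]
  have hcase : (N.subgroupOf X') = ⊥ ∨ (N.subgroupOf X') = ⊤ :=
    (inferInstance : (N.subgroupOf X').Normal).eq_bot_or_eq_top
  rcases hcase with hb | ht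
  · exfalso
    -- `p` does not divide `|N|`
    have hdis : X' ⊓ N = ⊥ := by
      rw [inf_comm]
      rw [subgroupOf_eq_bot] at hb
      exact disjoint_iff.1 hb
    have hcard : Nat.card X' * Nat.card N ∣ Nat.card M := by
      have h1 : Nat.card X' ∣ Nat.card (M ⧸ N) := by
        refine Subgroup.card_dvd_of_injective ((QuotientGroup.mk' N).comp X'.subtype) ?_
        rw [injective_iff_map_eq_one]
        intro x hx
        rw [MonoidHom.comp_apply, QuotientGroup.mk'_apply, QuotientGroup.eq_one_iff] at hx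
        have h2 : (x : M) ∈ X' ⊓ N := ⟨x.2, hx⟩
        rw [hdis, mem_bot] at h2
        exact Subtype.ext h2
      rw [Subgroup.card_eq_card_quotient_mul_card_subgroup N]
      exact Nat.mul_dvd_mul_right h1 _
    have hpN : ¬ p ∣ Nat.card N := by
      intro hd
      apply hp2
      have h1 : p ^ 2 ∣ Nat.card X' * Nat.card N := by
        rw [pow_two]
        exact mul_dvd_mul hpX' hd
      exact (h1.trans hcard).trans (Subgroup.card_subgroup_dvd_card M)
    have heven : ∀ T ∈ C, 2 ∣ Nat.card T := by
      intro T hT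
      by_contra hodd
      have h1 : Odd (Nat.card T) := by
        rw [← Nat.not_even_iff_odd, even_iff_two_dvd]
        exact hodd
      exact h.nonsol hT (hFT _ h1)
    have hCp : Nat.card C < p := by
      by_contra hge
      push Not at hge
      exact h2 ((pow_dvd_pow 2 hge).trans ((pow_dvd h heven).trans (hcd N)))
    have hcen : ∀ x ∈ X', ∀ T ∈ C, ∀ t ∈ T, x * t = t * x := by
      intro x hx T hT t ht
      have hTs := h.simple T hT
      refine cent_of_coprime X' T (hSch _) hXsimple hX's
        (le_normalizer_of h X' hXsimple hp hpX' hCp hT) hpX' ?_ x hx t ht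
      intro hd
      exact hpN (hd.trans (Subgroup.card_dvd_of_le (h.le T hT)))
    apply hNb
    rw [eq_bot_iff]
    intro n hn
    rw [mem_bot]
    have h1 : (n : G) ∈ centralizer (X : Set G) := by
      rw [Subgroup.mem_centralizer_iff]
      intro x hx
      have h2 := h.mem_centralizer (x := ⟨x, hXM hx⟩) (hcen ⟨x, hXM hx⟩ (by rw [hX', mem_subgroupOf]; exact hx))
      rw [Subgroup.mem_centralizer_iff] at h2
      exact (congrArg Subtype.val (h2 n hn)).symm
    rw [hC, mem_bot] at h1
    exact Subtype.ext h1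
  · -- `X ≤ N`
    rw [subgroupOf_eq_top] at ht
    have hpN : p ∣ Nat.card N := hpX'.trans (Subgroup.card_dvd_of_le ht)
    have h1 := pow_dvd h (exists_dvd h hp hpN)
    have h3 : Nat.card C ≤ 1 := by
      by_contra hge
      push Not at hge
      exact hp2 ((pow_dvd_pow p hge).trans (h1.trans (hcd N)))
    obtain ⟨T, hT⟩ := h.nonempty
    have hCT : C = {T} := by
      have : Finite C := inferInstance
      have h4 : Subsingleton C := Finite.card_le_one_iff_subsingleton.1 h3
      ext S
      rw [Set.mem_singleton_iff]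
      constructor
      · intro hS
        exact congrArg Subtype.val (Subsingleton.elim (⟨S, hS⟩ : C) ⟨T, hT⟩)
      · rintro rfl
        exact hT
    have hNT : N = T := by
      rw [← h.sup, hCT, sSup_singleton]
    refine ⟨N.map M.subtype, Subgroup.map_subtype_le N, hnorm N hN, isSimple_map ?_, ?_⟩
    · rw [hNT]
      exact h.simple T hT
    · intro x hx
      exact ⟨⟨x, hXM hx⟩, ht (by rw [hX', mem_subgroupOf]; exact hx), rfl⟩

end Cfsg.Agent.H848.L5
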